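import Mathlib

/-! Square matrices in three by three block form. -/

set_option autoImplicit false

namespace CfsgLib.Blk

open Matrix

variable {a b c : Type*} {R : Type*} [CommRing R]

/-- A matrix given by nine blocks. -/
def blk3 (A : Matrix a a R) (B : Matrix a b R) (C : Matrix a c R) (D : Matrix b a R) (E : Matrix b b R)
    (G : Matrix b c R) (H : Matrix c a R) (I : Matrix c b R) (K : Matrix c c R) :
    Matrix (a ⊕ (b ⊕ c)) (a ⊕ (b ⊕ c)) R :=
  Matrix.of (Sum.elim (fun i => Sum.elim (A i) (Sum.elim (B i) (C i)))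
    (Sum.elim (fun i => Sum.elim (D i) (Sum.elim (E i) (G i))) (fun i => Sum.elim (H i) (Sum.elim (I i) (K i)))))

variable (A A' : Matrix a a R) (B B' : Matrix a b R) (C C' : Matrix a c R) (D D' : Matrix b a R)
  (E E' : Matrix b b R) (G G' : Matrix b c R) (H H' : Matrix c a R) (I I' : Matrix c b R) (K K' : Matrix c c R)

theorem blk3_mul [Fintype a] [Fintype b] [Fintype c] :
    blk3 A B C D E G H I K * blk3 A' B' C' D' E' G' H' I' K' =
      blk3 (A * A' + B * D' + C * H') (A * B' + B * E' + C * I') (A * C' + B * G' + C * K')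
        (D * A' + E * D' + G * H') (D * B' + E * E' + G * I') (D * C' + E * G' + G * K')
        (H * A' + I * D' + K * H') (H * B' + I * E' + K * I') (H * C' + I * G' + K * K') := by
  ext i j
  rcases i with i | i | i <;> rcases j with j | j | j <;>
    simp [blk3, Matrix.mul_apply, Fintype.sum_sum_type, add_assoc]

theorem blk3_transpose :
    (blk3 A B C D E G H I K)ᵀ = blk3 Aᵀ Dᵀ Hᵀ Bᵀ Eᵀ Iᵀ Cᵀ Gᵀ Kᵀ := by
  ext i j
  rcases i with i | i | i <;> rcases j with j | j | j <;> simp [blk3]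

theorem blk3_inj :
    blk3 A B C D E G H I K = blk3 A' B' C' D' E' G' H' I' K' ↔
      A = A' ∧ B = B' ∧ C = C' ∧ D = D' ∧ E = E' ∧ G = G' ∧ H = H' ∧ I = I' ∧ K = K' := by
  constructor
  · intro h
    refine ⟨?_, ?_, ?_, ?_, ?_, ?_, ?_, ?_, ?_⟩ <;> ext i j
    · exact congrFun (congrFun h (.inl i)) (.inl j)
    · exact congrFun (congrFun h (.inl i)) (.inr (.inl j))
    · exact congrFun (congrFun h (.inl i)) (.inr (.inr j))
    · exact congrFun (congrFun h (.inr (.inl i))) (.inl j)
    · exact congrFun (congrFun h (.inr (.inl i))) (.inr (.inl j))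
    · exact congrFun (congrFun h (.inr (.inl i))) (.inr (.inr j))
    · exact congrFun (congrFun h (.inr (.inr i))) (.inl j)
    · exact congrFun (congrFun h (.inr (.inr i))) (.inr (.inl j))
    · exact congrFun (congrFun h (.inr (.inr i))) (.inr (.inr j))
  · rintro ⟨rfl, rfl, rfl, rfl, rfl, rfl, rfl, rfl, rfl⟩; rfl

theorem exists_blk3 (M : Matrix (a ⊕ (b ⊕ c)) (a ⊕ (b ⊕ c)) R) :
    ∃ A B C D E G H I K, M = blk3 A B C D E G H I K :=
  ⟨M.submatrix .inl .inl, M.submatrix .inl (.inr ∘ .inl), M.submatrix .inl (.inr ∘ .inr),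
    M.submatrix (.inr ∘ .inl) .inl, M.submatrix (.inr ∘ .inl) (.inr ∘ .inl), M.submatrix (.inr ∘ .inl) (.inr ∘ .inr),
    M.submatrix (.inr ∘ .inr) .inl, M.submatrix (.inr ∘ .inr) (.inr ∘ .inl), M.submatrix (.inr ∘ .inr) (.inr ∘ .inr),
    by ext i j; rcases i with i | i | i <;> rcases j with j | j | j <;> simp [blk3]⟩

theorem blk3_one [DecidableEq a] [DecidableEq b] [DecidableEq c] :
    blk3 (1 : Matrix a a R) 0 0 0 (1 : Matrix b b R) 0 0 0 (1 : Matrix c c R) = 1 := by
  ext i j
  rcases i with i | i | i <;> rcases j with j | j | j <;> simp [blk3, Matrix.one_apply]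

end CfsgLib.Blk
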