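import Cfsg.Agent.Classical.Symp.InvolutionCharTwo

/-!
The number of matrices `D` with `Dᵀ D = 1` over a finite field of characteristic two.
-/

set_option autoImplicit false
set_option linter.unusedSectionVars false

namespace CfsgLib.Classical.SympCharTwo

open Matrix

variable {F : Type*} [Field F] [Fintype F] [CharP F 2]

/-- The matrices `D` with `Dᵀ D = 1`. -/
abbrev OrthMat (F : Type*) [Field F] (n : ℕ) : Type _ := {D : Matrix (Fin n) (Fin n) F // Dᵀ * D = 1}

theorem dot_self_eq_sq {n : ℕ} (x : Fin n → F) : x ⬝ᵥ x = (∑ i, x i) ^ 2 := by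
  rw [CharTwo.sum_sq]
  simp [dotProduct, sq]

theorem sum_eq_one_of_dot_self {n : ℕ} {x : Fin n → F} (h : x ⬝ᵥ x = 1) : ∑ i, x i = 1 :=
  by
  rw [dot_self_eq_sq, sq_eq_one_iff, CharTwo.neg_eq, or_self] at h
  exact h

theorem dot_cols {n : ℕ} {D : Matrix (Fin n) (Fin n) F} (hD : Dᵀ * D = 1) (i j : Fin n) :
    (fun k => D k i) ⬝ᵥ (fun k => D k j) = if i = j then 1 else 0 := by
  have h := congrFun (congrFun hD i) j
  rwa [Matrix.one_apply] at h

/-- The possible first columns. -/
abbrev FirstCol (F : Type*) [Field F] (n : ℕ) : Type _ :=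
  {x : Fin (n + 2) → F // ∑ i, x i = 1 ∧ x ≠ fun _ => 1}

theorem exists_orth_first_col {n : ℕ} (x : FirstCol F n) :
    ∃ P : OrthMat F (n + 2), ∀ i, P.1 i 0 = x.1 i := by
  classical
  obtain ⟨x, hs, hj⟩ := x
  let b : LinearMap.BilinForm F (Fin (n + 2) → F) := LinearMap.mk₂ F (fun u v => u ⬝ᵥ v)
    (fun u u' v => add_dotProduct u u' v) (fun c u v => by simp)
    (fun u v v' => dotProduct_add u v v') (fun c u v => by simp)
  have hb : ∀ u v, b u v = u ⬝ᵥ v := fun u v => rfl
  have hxx : x ⬝ᵥ x = 1 := by rw [dot_self_eq_sq, hs, one_pow]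
  have hsy : ∀ u v, b u v = b v u := fun u v => dotProduct_comm u v
  let W : Submodule F (Fin (n + 2) → F) := LinearMap.ker (b x)
  have hW : Module.finrank F W = n + 1 := by
    have hne : b x ≠ 0 := fun h => one_ne_zero (α := F) (by rw [← hxx, ← hb, h]; rfl)
    have h1 := LinearMap.finrank_range_add_finrank_ker (b x)
    rw [LinearMap.range_eq_top.2 (LinearMap.surjective hne), finrank_top, Module.finrank_self] at h1
    simp at h1
    show Module.finrank F (LinearMap.ker (b x)) = n + 1
    omega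
  have hproj : ∀ v, v - b x v • x ∈ W := fun v => by
    show b x (v - b x v • x) = 0
    rw [map_sub, map_smul, hb x x, hxx, smul_eq_mul, mul_one, sub_self]
  have hnd : ∀ u ∈ W, (∀ v ∈ W, b u v = 0) → u = 0 := by
    intro u hu h
    funext i
    have h2 := h _ (hproj (Pi.single i 1))
    rw [map_sub, map_smul, show b u x = 0 from (hsy u x).trans hu, smul_zero, sub_zero] at h2
    simpa [hb] using h2
  have hdiag : n + 1 ≠ 0 → ∃ u ∈ W, b u u ≠ 0 := by
    intro _
    by_contra hcon
    push Not at hcon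
    have hall : ∀ i k, x i = x k := by
      intro i k
      by_cases hik : i = k
      · rw [hik]
      have hy : (Pi.single i (x k) + Pi.single k (x i) : Fin (n + 2) → F) ∈ W := by
        show x ⬝ᵥ (Pi.single i (x k) + Pi.single k (x i)) = 0
        rw [dotProduct_add, dotProduct_single, dotProduct_single, mul_comm (x k), CharTwo.add_self_eq_zero]
      have h2 : (Pi.single i (x k) + Pi.single k (x i) : Fin (n + 2) → F) ⬝ᵥ
          (Pi.single i (x k) + Pi.single k (x i)) = 0 := hcon _ hy
      rw [dot_self_eq_sq, sq_eq_zero_iff] at h2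
      simp only [Pi.add_apply, Finset.sum_add_distrib, Finset.sum_pi_single', Finset.mem_univ, if_true] at h2
      exact (CharTwo.add_eq_zero.1 h2).symm
    refine hj (funext fun i => ?_)
    have h2 : ∑ k, x k = (n + 2 : ℕ) * x i := by
      rw [Finset.sum_congr rfl (fun k _ => hall k i)]; simp
    rw [hs] at h2
    rcases (CharTwo.natCast_cases (R := F) (n + 2)) with hc | hc
    · rw [hc, zero_mul] at h2; exact absurd h2 one_ne_zero
    · rw [hc, one_mul] at h2; exact h2.symm
  obtain ⟨v, hvW, hv⟩ := exists_orthonormal_family b hsy (n + 1) W hW hnd hdiag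
  refine ⟨⟨Matrix.of fun k j => (Fin.cons x v : Fin (n + 2) → Fin (n + 2) → F) j k, ?_⟩, fun i => rfl⟩
  ext i j
  show ((Fin.cons x v : Fin (n + 2) → Fin (n + 2) → F) i) ⬝ᵥ
    ((Fin.cons x v : Fin (n + 2) → Fin (n + 2) → F) j) = _
  rw [Matrix.one_apply]
  refine Fin.cases ?_ (fun i' => ?_) i <;> refine Fin.cases ?_ (fun j' => ?_) j
  · simpa using hxx
  · have : b x (v j') = 0 := hvW j'
    simpa [eq_comm (a := (0 : Fin (n + 2))), hb] using this
  · have : b x (v i') = 0 := hvW i'
    simpa [hb, dotProduct_comm (v i')] using this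
  · simpa [hb] using hv i' j'

theorem card_orthMat_succ (n : ℕ) :
    Nat.card (OrthMat F (n + 2)) = Nat.card (FirstCol F n) * Nat.card (OrthMat F (n + 1)) := by
  classical
  rw [← Nat.card_prod]
  choose P hP using fun x : FirstCol F n => exists_orth_first_col x
  let col : OrthMat F (n + 2) → FirstCol F n := fun D =>
    ⟨fun k => D.1 k 0, sum_eq_one_of_dot_self (by rw [dot_cols D.2, if_pos rfl]), fun h => by
      have h1 := dot_cols D.2 1 1
      have h01 := dot_cols D.2 0 1
      rw [if_pos rfl] at h1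
      rw [h, if_neg (by simp)] at h01
      have hs := sum_eq_one_of_dot_self h1
      rw [show ((fun _ => 1) : Fin (n + 2) → F) ⬝ᵥ (fun k => D.1 k 1) = ∑ k, D.1 k 1 by simp [dotProduct],
        hs] at h01
      exact one_ne_zero h01⟩
  let ext' : Matrix (Fin (n + 1)) (Fin (n + 1)) F → Matrix (Fin (n + 2)) (Fin (n + 2)) F := fun M =>
    Matrix.of fun i j => Fin.cases (Fin.cases (1 : F) (fun _ => 0) j) (fun i' => Fin.cases 0 (fun j' => M i' j') j) i
  have hext : ∀ M, Mᵀ * M = 1 → (ext' M)ᵀ * ext' M = 1 := by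
    intro M hM
    ext i j
    rw [Matrix.mul_apply, Fin.sum_univ_succ]
    refine Fin.cases ?_ (fun i' => ?_) i <;> refine Fin.cases ?_ (fun j' => ?_) j
    · simp [ext', Matrix.one_apply]
    · simp [ext', Matrix.one_apply, eq_comm (a := (0 : Fin (n + 2)))]
    · simp [ext', Matrix.one_apply]
    · have := congrFun (congrFun hM i') j'
      simpa [ext', Matrix.mul_apply, Matrix.one_apply] using this
  refine Nat.card_congr (Equiv.symm (Equiv.ofBijective (fun p : FirstCol F n × OrthMat F (n + 1) =>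
    (⟨(P p.1).1 * ext' p.2.1, by
      rw [Matrix.transpose_mul, Matrix.mul_assoc, ← Matrix.mul_assoc ((P p.1).1)ᵀ, (P p.1).2, Matrix.one_mul,
        hext _ p.2.2]⟩ : OrthMat F (n + 2))) ⟨?_, ?_⟩))
  · rintro ⟨x, M⟩ ⟨x', M'⟩ h
    have h' : (P x).1 * ext' M.1 = (P x').1 * ext' M'.1 := congrArg Subtype.val h
    have hx : x = x' := by
      refine Subtype.ext (funext fun i => ?_)
      have := congrFun (congrFun h' i) 0
      simp only [Matrix.mul_apply] at this
      rw [Fintype.sum_eq_single 0, Fintype.sum_eq_single 0] at this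
      · simpa [ext', hP] using this
      · intro k hk; obtain ⟨k', rfl⟩ := Fin.exists_succ_eq.2 hk; simp [ext']
      · intro k hk; obtain ⟨k', rfl⟩ := Fin.exists_succ_eq.2 hk; simp [ext']
    subst hx
    have h'' := congrArg (fun X => (P x).1ᵀ * X) h'
    simp only [← Matrix.mul_assoc, (P x).2, Matrix.one_mul] at h''
    refine Prod.ext rfl (Subtype.ext (Matrix.ext fun i j => ?_))
    simpa [ext'] using congrFun (congrFun h'' i.succ) j.succ
  · intro D
    let R := (P (col D)).1ᵀ * D.1
    have hR : Rᵀ * R = 1 := by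
      show ((P (col D)).1ᵀ * D.1)ᵀ * ((P (col D)).1ᵀ * D.1) = 1
      rw [Matrix.transpose_mul, Matrix.transpose_transpose, Matrix.mul_assoc,
        ← Matrix.mul_assoc (P (col D)).1, mul_eq_one_comm.1 (P (col D)).2, Matrix.one_mul, D.2]
    have hc : ∀ i, R i 0 = if i = 0 then 1 else 0 := by
      intro i
      have h := dot_cols (P (col D)).2 i 0
      rw [← h]
      show ∑ k, (P (col D)).1ᵀ i k * D.1 k 0 = ∑ k, (P (col D)).1 k i * (P (col D)).1 k 0
      refine Finset.sum_congr rfl fun k _ => ?_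
      simp [Matrix.transpose_apply, hP, col]
    have hr : ∀ j, R 0 j = if j = 0 then 1 else 0 := by
      intro j
      have h := dot_cols hR 0 j
      rw [dotProduct, Fintype.sum_eq_single 0 (fun k hk => by rw [hc, if_neg hk, zero_mul]), hc, if_pos rfl,
        one_mul] at h
      rw [h]; simp [eq_comm]
    refine ⟨(col D, ⟨R.submatrix Fin.succ Fin.succ, ?_⟩), Subtype.ext ?_⟩
    · ext i j
      have h := dot_cols hR i.succ j.succ
      rw [dotProduct, Fin.sum_univ_succ, hr, if_neg (Fin.succ_ne_zero i), zero_mul, zero_add] at h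
      simpa [Matrix.mul_apply, Matrix.one_apply] using h
    · show (P (col D)).1 * ext' (R.submatrix Fin.succ Fin.succ) = D.1
      rw [show ext' (R.submatrix Fin.succ Fin.succ) = R from ?_]
      · show (P (col D)).1 * ((P (col D)).1ᵀ * D.1) = D.1
        rw [← Matrix.mul_assoc, mul_eq_one_comm.1 (P (col D)).2, Matrix.one_mul]
      · ext i j
        refine Fin.cases ?_ (fun i' => ?_) i <;> refine Fin.cases ?_ (fun j' => ?_) j <;>
          simp [ext', hc, hr, Fin.succ_ne_zero]

theorem card_sum_eq_one (n : ℕ) :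
    Nat.card {x : Fin (n + 1) → F // ∑ i, x i = 1} = Fintype.card F ^ n := by
  rw [← Nat.card_eq_fintype_card, show Nat.card F ^ n = Nat.card (Fin n → F) by rw [Nat.card_fun, Nat.card_fin]]
  refine Nat.card_congr
    { toFun := fun x => fun i => x.1 i.succ
      invFun := fun y => ⟨Fin.cons (1 - ∑ i, y i) y, by simp [Fin.sum_univ_succ]⟩
      left_inv := fun x => Subtype.ext (funext fun i => by
        refine Fin.cases ?_ (fun i' => rfl) i
        simp only [Fin.cons_zero]
        have := x.2
        rw [Fin.sum_univ_succ] at this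
        linear_combination -this)
      right_inv := fun y => rfl }

theorem card_firstCol (n : ℕ) :
    Nat.card (FirstCol F n) = if Even (n + 2) then Fintype.card F ^ (n + 1) else Fintype.card F ^ (n + 1) - 1 := by
  classical
  rw [← card_sum_eq_one (F := F) (n + 1)]
  have hj : (∑ _i : Fin (n + 2), (1 : F)) = 1 ↔ ¬ Even (n + 2) := by
    rw [Finset.sum_const, Finset.card_univ, Fintype.card_fin, nsmul_one]
    rcases Nat.even_or_odd (n + 2) with h | h
    · rw [(CharP.cast_eq_zero_iff F 2 _).2 (even_iff_two_dvd.1 h)]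
      simp [h]
    · obtain ⟨k, hk⟩ := h
      rw [hk, Nat.cast_add, Nat.cast_mul, (CharP.cast_eq_zero_iff F 2 2).2 dvd_rfl, zero_mul, zero_add,
        Nat.cast_one]
      simp
  split_ifs with h
  · refine Nat.card_congr (Equiv.subtypeEquivRight fun x => ⟨And.left, fun hx => ⟨hx, ?_⟩⟩)
    rintro rfl
    exact hj.1 hx h
  · rw [Nat.card_eq_fintype_card, Nat.card_eq_fintype_card, Fintype.card_subtype, Fintype.card_subtype]
    have : (Finset.univ.filter fun x : Fin (n + 2) → F => ∑ i, x i = 1 ∧ x ≠ fun _ => 1) =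
        (Finset.univ.filter fun x : Fin (n + 2) → F => ∑ i, x i = 1).erase (fun _ => 1) := by
      ext x; simp [and_comm]
    rw [this, Finset.card_erase_of_mem (by simpa using hj.2 h)]

theorem card_orthMat_one : Nat.card (OrthMat F 1) = 1 := by
  rw [Nat.card_eq_one_iff_exists]
  refine ⟨⟨1, by simp⟩, fun D => Subtype.ext (Matrix.ext fun i j => ?_)⟩
  fin_cases i; fin_cases j
  have h := sum_eq_one_of_dot_self ((dot_cols D.2 0 0).trans (if_pos rfl))
  simpa using h

/-- `|O_s|` for the form with orthonormal basis: `|Sp_{2k}|` for `s = 2k+1`, and `q^(2k+1)|Sp_{2k}|` for `s = 2k+2`. -/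
theorem card_orthMat (k : ℕ) :
    Nat.card (OrthMat F (2 * k + 1)) =
        Fintype.card F ^ (k ^ 2) * ∏ i ∈ Finset.range k, (Fintype.card F ^ (2 * (i + 1)) - 1) ∧
      Nat.card (OrthMat F (2 * k + 2)) = Fintype.card F ^ (2 * k + 1) *
        (Fintype.card F ^ (k ^ 2) * ∏ i ∈ Finset.range k, (Fintype.card F ^ (2 * (i + 1)) - 1)) := by
  have step : ∀ k, Nat.card (OrthMat F (2 * k + 2)) =
      Fintype.card F ^ (2 * k + 1) * Nat.card (OrthMat F (2 * k + 1)) := fun k => by
    rw [card_orthMat_succ, card_firstCol, if_pos ⟨k + 1, by ring⟩]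
  induction k with
  | zero => rw [step, card_orthMat_one]; simp [card_orthMat_one]
  | succ k ih =>
    have h1 : Nat.card (OrthMat F (2 * (k + 1) + 1)) =
        Fintype.card F ^ ((k + 1) ^ 2) * ∏ i ∈ Finset.range (k + 1), (Fintype.card F ^ (2 * (i + 1)) - 1) := by
      rw [show 2 * (k + 1) + 1 = (2 * k + 1) + 2 by ring, card_orthMat_succ, card_firstCol,
        if_neg (by rw [Nat.not_even_iff_odd]; exact ⟨k + 1, by ring⟩), ih.2, Finset.prod_range_succ,
        show 2 * k + 1 + 1 = 2 * (k + 1) by ring]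
      ring
    exact ⟨h1, by rw [step, h1]⟩

end CfsgLib.Classical.SympCharTwo
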