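import Cfsg.Agent.Classical.Symp.InvolutionTwoModel
import Cfsg.Agent.Classical.Symp.OrthTwoMatrices
import Cfsg.Agent.Classical.Symp.Card

/-!
Classes of involutions of `Sp₂ₘ` in characteristic two and the orders of their centralisers.
-/

set_option autoImplicit false
set_option linter.unusedSectionVars false

namespace CfsgLib.Classical.SympCharTwo

open Matrix CfsgLib.Classical.Symp CfsgLib.Blk

variable {F : Type*} [Field F] [Fintype F] [CharP F 2] {m : ℕ}

local notation "B" => Cfsg.sympForm m F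
local notation "Sp" => Matrix.symplecticGroup (Fin m) F
local notation "Mat" => Matrix (Fin m ⊕ Fin m) (Fin m ⊕ Fin m) F

/-- The rank of `t - 1`. -/
noncomputable abbrev invRank (t : Sp) : ℕ := ((t : Mat) - 1).rank

/-- `f(v, tv)` vanishes identically. -/
abbrev InvAlt (t : Sp) : Prop := ∀ v : Fin m ⊕ Fin m → F, B v ((t : Mat) *ᵥ v) = 0

theorem isConj_of_invariants {a b : Sp} (ha : a * a = 1) (hb : b * b = 1) (hr : invRank a = invRank b)
    (halt : InvAlt a ↔ InvAlt b) : IsConj a b := by
  rcases exists_normalFamily ha with ⟨pa, k, hk, v, hv⟩ | ⟨pa, v, hv⟩ <;>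
    rcases exists_normalFamily hb with ⟨pb, k', hk', v', hv'⟩ | ⟨pb, v', hv'⟩
  · obtain rfl : k = k' := by
      have : Module.finrank F (LinearMap.range (disp a)) = Module.finrank F (LinearMap.range (disp b)) := hr
      omega
    exact isConj_of_normalFamily ha hb hv hv'
  · exact absurd (halt.1 pa) pb
  · exact absurd (halt.2 pb) pa
  · have hr' : Module.finrank F (LinearMap.range (disp b)) = Module.finrank F (LinearMap.range (disp a)) := hr.symm
    revert v'
    rw [hr']
    intro v' hv'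
    exact isConj_of_normalFamily ha hb hv hv'

theorem invariants_of_isConj {a b : Sp} (h : IsConj a b) :
    invRank a = invRank b ∧ (InvAlt a ↔ InvAlt b) := by
  obtain ⟨g, hg⟩ := isConj_iff.1 h
  have hu : IsUnit ((g : Mat)).det := SymplecticGroup.symplectic_det g.2
  have hmat : (b : Mat) * (g : Mat) = (g : Mat) * (a : Mat) := by
    show ((b * g : Sp) : Mat) = ((g * a : Sp) : Mat)
    rw [← hg, inv_mul_cancel_right]
  refine ⟨?_, ?_⟩
  · show ((a : Mat) - 1).rank = ((b : Mat) - 1).rank
    rw [← Matrix.rank_mul_eq_left_of_isUnit_det _ ((b : Mat) - 1) hu, sub_mul, one_mul, hmat,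
      ← mul_sub_one, Matrix.rank_mul_eq_right_of_isUnit_det _ _ hu]
  · have key : ∀ v, B v ((a : Mat) *ᵥ v) = B ((g : Mat) *ᵥ v) ((b : Mat) *ᵥ ((g : Mat) *ᵥ v)) := fun v => by
      rw [mulVec_mulVec, hmat, ← mulVec_mulVec, form_mulVec]
    constructor
    · intro ha w
      have := key (((g⁻¹ : Sp) : Mat) *ᵥ w)
      rw [mulVec_inv_cancel, ha] at this
      exact this.symm
    · intro hb v
      rw [key, hb]

theorem rank_le_and_parity {t : Sp} (ht : t * t = 1) :
    invRank t ≤ m ∧ (InvAlt t → Even (invRank t)) ∧ (invRank t = 0 → InvAlt t) := by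
  classical
  have hle : ∀ {κ : Type} [Fintype κ] [DecidableEq κ] {π : Equiv.Perm κ} (v : κ → Fin m ⊕ Fin m → F),
      NormalFamily t π v → Fintype.card κ ≤ m := by
    intro κ _ _ π v hv
    have := (hv.li ht).fintype_card_le_finrank
    simp at this
    omega
  have h0 : invRank t = 0 → InvAlt t := fun h v => by
    have hz : disp t = 0 := LinearMap.range_eq_bot.1 (Submodule.finrank_eq_zero.1 h)
    rw [form_mulVec_eq_disp, hz, LinearMap.zero_apply, form_zero_right]
  rcases exists_normalFamily ht with ⟨pa, k, hk, v, hv⟩ | ⟨pa, v, hv⟩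
  · refine ⟨?_, fun _ => ⟨k, hk.trans (two_mul k)⟩, h0⟩
    have := hle v hv
    simp at this
    show Module.finrank F (LinearMap.range (disp t)) ≤ m
    omega
  · refine ⟨?_, fun h => absurd h pa, h0⟩
    have := hle v hv
    simp at this
    exact this

variable {κ : Type} [Fintype κ] [DecidableEq κ] {r : ℕ} (G : Matrix κ κ F)

theorem invRank_invol (e : κ ⊕ Fin r ≃ Fin m) (hG : G * G = 1) (hGs : Gᵀ = G) :
    invRank (invol G e hGs) = Fintype.card κ := by
  show (involMat G e - 1).rank = _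
  have h1 : involMat G e - 1 = (invol3 G r - 1).submatrix (idxEquiv e).symm (idxEquiv e).symm := by
    ext i j
    simp [involMat, Matrix.one_apply]
  rw [h1, Matrix.rank_submatrix]
  let U : Matrix (Idx3 κ r) κ F := Matrix.of (Sum.elim (fun a => (1 : Matrix κ κ F) a) (fun _ => 0))
  let W : Matrix κ (Idx3 κ r) F := Matrix.of fun a => Sum.elim (fun _ => 0) (Sum.elim (fun _ => 0) (G a))
  have hUW : invol3 G r - 1 = U * W := by
    ext i j
    rcases i with i | i | i <;> rcases j with j | j | j <;>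
      simp [invol3, blk3, U, W, Matrix.mul_apply, Matrix.one_apply]
  have hU : Function.Injective U.mulVecLin := by
    intro x y h
    funext a
    simpa [U, Matrix.mulVec, dotProduct, Matrix.one_apply] using congrFun h (Sum.inl a)
  have hW : LinearMap.range W.mulVecLin = ⊤ := by
    refine LinearMap.range_eq_top.2 fun x => ⟨Sum.elim (fun _ => 0) (Sum.elim (fun _ => 0) (G *ᵥ x)), ?_⟩
    funext a
    have : (W.mulVecLin (Sum.elim (fun _ => 0) (Sum.elim (fun _ => 0) (G *ᵥ x)))) a = (G *ᵥ (G *ᵥ x)) a := by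
      simp [W, Matrix.mulVec, dotProduct, Fintype.sum_sum_type]
    rw [this, mulVec_mulVec, hG, one_mulVec]
  rw [hUW, Matrix.rank, Matrix.mulVecLin_mul, LinearMap.range_comp_of_range_eq_top _ hW,
    LinearMap.finrank_range_of_inj hU, Module.finrank_fintype_fun_eq_card]

theorem invAlt_invol_iff (e : κ ⊕ Fin r ≃ Fin m) (hG : G * G = 1) (hGs : Gᵀ = G) :
    InvAlt (invol G e hGs) ↔ ∀ i, G i i = 0 := by
  classical
  have hv : ∀ x : Idx3 κ r → F,
      B (x ∘ (idxEquiv e).symm) (involMat G e *ᵥ (x ∘ (idxEquiv e).symm)) =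
        x ⬝ᵥ (form3 F κ r *ᵥ (invol3 G r *ᵥ x)) := by
    intro x
    have hJ : Matrix.J (Fin m) F = (form3 F κ r).submatrix (idxEquiv e).symm (idxEquiv e).symm := by
      rw [← J_submatrix e, Matrix.submatrix_submatrix]; simp
    show (x ∘ (idxEquiv e).symm) ⬝ᵥ (Matrix.J (Fin m) F *ᵥ (involMat G e *ᵥ (x ∘ (idxEquiv e).symm))) = _
    rw [involMat, hJ, Matrix.submatrix_mulVec_equiv, Matrix.submatrix_mulVec_equiv]
    simp [Function.comp_assoc, comp_equiv_symm_dotProduct]
  have hval : ∀ x : Idx3 κ r → F, x ⬝ᵥ (form3 F κ r *ᵥ (invol3 G r *ᵥ x)) =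
      (fun a => x (.inr (.inr a))) ⬝ᵥ (G *ᵥ fun a => x (.inr (.inr a))) := by
    intro x
    have h : form3 F κ r * invol3 G r = form3 F κ r + blk3 0 0 0 0 0 0 0 0 G := by
      ext i j
      simp only [form3, invol3, blk3_mul, Matrix.add_apply]
      rcases i with i | i | i <;> rcases j with j | j | j <;> simp [blk3]
    rw [mulVec_mulVec, h, add_mulVec, dotProduct_add]
    have h0 : x ⬝ᵥ (form3 F κ r *ᵥ x) = 0 := by
      simp only [form3, blk3, Matrix.mulVec, dotProduct, Fintype.sum_sum_type, Matrix.of_apply, Sum.elim_inl,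
        Sum.elim_inr, Matrix.zero_apply, Matrix.one_apply, zero_mul, Finset.sum_const_zero, add_zero, zero_add,
        ite_mul, one_mul, Finset.sum_ite_eq, Finset.mem_univ, if_true]
      have hJ := form_self (F := F) (fun j => x (.inr (.inl j)))
      simp only [Cfsg.sympForm, Matrix.mulVec, dotProduct, Fintype.sum_sum_type] at hJ
      linear_combination hJ + (∑ a, x (.inl a) * x (.inr (.inr a))) * (CharTwo.two_eq_zero : (2 : F) = 0) +
        (Finset.sum_congr rfl (fun a _ => mul_comm _ _) :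
          ∑ a, x (.inr (.inr a)) * x (.inl a) = ∑ a, x (.inl a) * x (.inr (.inr a)))
    rw [h0, zero_add]
    simp [blk3, Matrix.mulVec, dotProduct, Fintype.sum_sum_type]
  have hquad : ∀ y : κ → F, y ⬝ᵥ (G *ᵥ y) = ∑ i, G i i * y i ^ 2 := by
    intro y
    simp only [dotProduct, Matrix.mulVec, Finset.mul_sum]
    rw [← Fintype.sum_prod_type' (f := fun i j => y i * (G i j * y j))]
    rw [← Finset.sum_filter_add_sum_filter_not (Finset.univ : Finset (κ × κ)) (fun p => p.1 = p.2)]
    have hoff : ∑ p ∈ (Finset.univ : Finset (κ × κ)) with ¬ p.1 = p.2, y p.1 * (G p.1 p.2 * y p.2) = 0 := by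
      refine Finset.sum_involution (fun p _ => (p.2, p.1)) (fun p hp => ?_) (fun p hp _ => ?_) (fun p hp => ?_)
        (fun p hp => rfl)
      · rw [show G p.2 p.1 = G p.1 p.2 from congrFun (congrFun hGs p.1) p.2,
          show y p.2 * (G p.1 p.2 * y p.1) = y p.1 * (G p.1 p.2 * y p.2) by ring, CharTwo.add_self_eq_zero]
      · simp only [Finset.mem_filter] at hp
        exact fun h => hp.2 (congrArg Prod.fst h).symm
      · simp only [Finset.mem_filter, Finset.mem_univ, true_and] at hp ⊢
        exact fun h => hp h.symm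
    rw [hoff, add_zero]
    refine Finset.sum_nbij' (fun p => p.1) (fun i => (i, i)) (by simp) (by simp)
      (fun p hp => by simp at hp; exact Prod.ext rfl hp) (by simp) (fun p hp => ?_)
    simp at hp
    rw [← hp]; ring
  constructor
  · intro h i
    have h1 := h ((Sum.elim (fun _ => 0) (Sum.elim (fun _ => 0) (Pi.single i (1 : F))) : Idx3 κ r → F) ∘ (idxEquiv e).symm)
    rw [show ((invol G e hGs : Sp) : Mat) = involMat G e from rfl, hv, hval, hquad] at h1
    simpa [Pi.single_apply] using h1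
  · intro h v
    rw [show v = (v ∘ idxEquiv e) ∘ (idxEquiv e).symm by ext j; simp,
      show ((invol G e hGs : Sp) : Mat) = involMat G e from rfl, hv, hval, hquad]
    simp [h]

theorem card_centralizer_of_invariants {t : Sp} (ht : t * t = 1) (e : κ ⊕ Fin r ≃ Fin m) (hG : G * G = 1)
    (hGs : Gᵀ = G) (hs : invRank t = Fintype.card κ) (halt : InvAlt t ↔ ∀ i, G i i = 0) :
    Nat.card (Subgroup.centralizer ({t} : Set Sp)) =
      Fintype.card F ^ (2 * r * Fintype.card κ + (Fintype.card κ + 1).choose 2) * Nat.card (GramStab G) *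
        (Fintype.card F ^ (r ^ 2) * ∏ i ∈ Finset.range r, (Fintype.card F ^ (2 * (i + 1)) - 1)) := by
  obtain ⟨g, hg⟩ := isConj_iff.1 (isConj_of_invariants (invol_sq G e hGs) ht
    (by rw [invRank_invol G e hG hGs, hs]) (by rw [invAlt_invol_iff G e hG hGs, halt]))
  rw [← card_symplecticGroup, ← card_centralizer_invol G e hG hGs]
  refine (Nat.card_congr (Equiv.subtypeEquiv (MulAut.conj g).toEquiv fun x => ?_)).symm
  rw [Subgroup.mem_centralizer_singleton_iff, Subgroup.mem_centralizer_singleton_iff]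
  rw [← hg]
  constructor
  · intro h
    show g * x * g⁻¹ * (g * _ * g⁻¹) = g * _ * g⁻¹ * (g * x * g⁻¹)
    rw [conj_mul, conj_mul, h]
  · intro h
    replace h : g * x * g⁻¹ * (g * _ * g⁻¹) = g * _ * g⁻¹ * (g * x * g⁻¹) := h
    rw [conj_mul, conj_mul] at h
    exact mul_left_cancel (mul_right_cancel h)

theorem card_gramStab_J (k : ℕ) :
    Nat.card (GramStab (Matrix.J (Fin k) F)) =
      Fintype.card F ^ (k ^ 2) * ∏ i ∈ Finset.range k, (Fintype.card F ^ (2 * (i + 1)) - 1) := by
  rw [← card_symplecticGroup]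
  exact Nat.card_congr (Equiv.subtypeEquivRight fun D => (SymplecticGroup.mem_iff').symm)

theorem card_gramStab_one (s : ℕ) : Nat.card (GramStab (1 : Matrix (Fin s) (Fin s) F)) = Nat.card (OrthMat F s) :=
  Nat.card_congr (Equiv.subtypeEquivRight fun D => by rw [Matrix.mul_one])

theorem J_mul_self (k : ℕ) : Matrix.J (Fin k) F * Matrix.J (Fin k) F = 1 := by
  rw [Matrix.J_squared, mat_neg_eq]

theorem J_diag (k : ℕ) (i : Fin k ⊕ Fin k) : Matrix.J (Fin k) F i i = 0 := by
  rcases i with i | i <;> simp [Matrix.J]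

/-- A non-alternating involution of given rank `s`. -/
def involNonalt (s : ℕ) (hs : s ≤ m) : Sp :=
  invol (1 : Matrix (Fin s) (Fin s) F) (finSumFinEquiv.trans (finCongr (Nat.add_sub_cancel' hs))) Matrix.transpose_one

/-- An alternating involution of given rank `2k`. -/
def involAlt (k : ℕ) (hk : k + k ≤ m) : Sp :=
  invol (Matrix.J (Fin k) F)
    ((Equiv.sumCongr finSumFinEquiv (Equiv.refl _)).trans
      (finSumFinEquiv.trans (finCongr (Nat.add_sub_cancel' hk)))) (J_transpose' k)

theorem involNonalt_spec {s : ℕ} (hs : s ≤ m) (hs1 : 1 ≤ s) :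
    involNonalt (F := F) s hs * involNonalt s hs = 1 ∧ invRank (involNonalt (F := F) s hs) = s ∧
      ¬ InvAlt (involNonalt (F := F) s hs) :=
  ⟨invol_sq .., (invRank_invol _ _ (one_mul 1) _).trans (Fintype.card_fin s), fun h => one_ne_zero (α := F)
    (by simpa using (invAlt_invol_iff _ _ (one_mul 1) Matrix.transpose_one).1 h ⟨0, hs1⟩)⟩

theorem involAlt_spec {k : ℕ} (hk : k + k ≤ m) :
    involAlt (F := F) k hk * involAlt k hk = 1 ∧ invRank (involAlt (F := F) k hk) = k + k ∧
      InvAlt (involAlt (F := F) k hk) :=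
  ⟨invol_sq .., (invRank_invol _ _ (J_mul_self k) _).trans (by simp),
    (invAlt_invol_iff _ _ (J_mul_self k) (J_transpose' k)).2 (J_diag k)⟩

theorem card_centralizer_nonalt {t : Sp} (ht : t * t = 1) {s : ℕ} (hs : invRank t = s) (h : ¬ InvAlt t) :
    s ≤ m ∧ Nat.card (Subgroup.centralizer ({t} : Set Sp)) =
      Fintype.card F ^ (2 * (m - s) * s + (s + 1).choose 2) * Nat.card (OrthMat F s) *
        (Fintype.card F ^ ((m - s) ^ 2) * ∏ i ∈ Finset.range (m - s), (Fintype.card F ^ (2 * (i + 1)) - 1)) := by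
  obtain ⟨hle, -, h0⟩ := rank_le_and_parity ht
  rw [hs] at hle h0
  refine ⟨hle, ?_⟩
  have hs1 : 1 ≤ s := Nat.one_le_iff_ne_zero.2 fun h' => h (h0 h')
  rw [← card_gramStab_one]
  convert card_centralizer_of_invariants (1 : Matrix (Fin s) (Fin s) F) ht
    (finSumFinEquiv.trans (finCongr (Nat.add_sub_cancel' hle))) (one_mul 1) Matrix.transpose_one
    (hs.trans (Fintype.card_fin s).symm) ⟨fun h' => absurd h' h, fun h' => absurd (h' ⟨0, hs1⟩) (by simp)⟩ using 4 <;>
  simp

theorem card_centralizer_alt {t : Sp} (ht : t * t = 1) {k : ℕ} (hs : invRank t = k + k) (h : InvAlt t) :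
    k + k ≤ m ∧ Nat.card (Subgroup.centralizer ({t} : Set Sp)) =
      Fintype.card F ^ (2 * (m - (k + k)) * (k + k) + (k + k + 1).choose 2) *
        (Fintype.card F ^ (k ^ 2) * ∏ i ∈ Finset.range k, (Fintype.card F ^ (2 * (i + 1)) - 1)) *
        (Fintype.card F ^ ((m - (k + k)) ^ 2) *
          ∏ i ∈ Finset.range (m - (k + k)), (Fintype.card F ^ (2 * (i + 1)) - 1)) := by
  obtain ⟨hle, -, -⟩ := rank_le_and_parity ht
  rw [hs] at hle
  refine ⟨hle, ?_⟩
  rw [← card_gramStab_J]
  convert card_centralizer_of_invariants (Matrix.J (Fin k) F) ht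
    ((Equiv.sumCongr finSumFinEquiv (Equiv.refl _)).trans
      (finSumFinEquiv.trans (finCongr (Nat.add_sub_cancel' hle)))) (J_mul_self k) (J_transpose' k)
    (hs.trans (by simp)) ⟨fun _ => J_diag k, fun _ => h⟩ using 4 <;>
  simp

end CfsgLib.Classical.SympCharTwo

namespace CfsgLib.Classical.SympCharTwo

theorem exponent_eq {m s : ℕ} (h : s ≤ m) :
    2 * (m - s) * s + (s + 1).choose 2 = 2 * m * s - (3 * s ^ 2 - s) / 2 := by
  rw [Nat.choose_two_right, Nat.add_sub_cancel]
  obtain ⟨r, rfl⟩ : ∃ r, m = s + r := ⟨m - s, by omega⟩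
  obtain ⟨t, ht⟩ := Nat.even_mul_succ_self s
  rw [Nat.add_sub_cancel_left, show (s + 1) * s / 2 = t by rw [mul_comm (s + 1) s, ht]; omega]
  have h1 : s ≤ s * s := Nat.le_mul_self s
  have h2 : s * (s + 1) = s * s + s := by ring
  rw [show 2 * (s + r) * s = 2 * (r * s) + 2 * (s * s) by ring, show 2 * r * s = 2 * (r * s) by ring,
    show 3 * s ^ 2 = 3 * (s * s) by ring]
  omega

end CfsgLib.Classical.SympCharTwo
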