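import Cfsg.Agent.Classical.Symp.BlockThree
import Cfsg.Agent.Classical.Symp.InvolutionCharTwo

/-!
The standard involutions of `Sp₂ₘ` in characteristic two and their centralisers.
-/

set_option autoImplicit false
set_option linter.unusedSectionVars false

namespace CfsgLib.Classical.SympCharTwo

open Matrix CfsgLib.Classical.Symp CfsgLib.Blk

variable {F : Type*} [Field F] [CharP F 2]
variable {κ : Type} [Fintype κ] [DecidableEq κ] {r m : ℕ}

theorem mat_neg_eq {a b : Type*} (M : Matrix a b F) : -M = M :=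
  Matrix.ext fun _ _ => CharTwo.neg_eq _

theorem mat_add_self {a b : Type*} (M : Matrix a b F) : M + M = 0 :=
  Matrix.ext fun _ _ => CharTwo.add_self_eq_zero _

theorem mat_add_eq_zero {a b : Type*} {M M' : Matrix a b F} : M + M' = 0 ↔ M = M' := by
  constructor
  · intro h; rw [← add_zero M, ← mat_add_self M', ← add_assoc, h, zero_add]
  · rintro rfl; exact mat_add_self M

/-- Matrices preserving the symmetric matrix `G`. -/
abbrev GramStab (G : Matrix κ κ F) : Type _ := {D : Matrix κ κ F // Dᵀ * G * D = G}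

/-- The index of the block form: the image of `t - 1`, a complement inside the fixed space, a complement. -/
abbrev Idx3 (κ : Type) (r : ℕ) : Type := κ ⊕ ((Fin r ⊕ Fin r) ⊕ κ)

/-- Reindexing the coordinates of `Sp₂ₘ` into block form. -/
def idxEquiv (e : κ ⊕ Fin r ≃ Fin m) : Idx3 κ r ≃ Fin m ⊕ Fin m where
  toFun := Sum.elim (fun a => .inl (e (.inl a)))
    (Sum.elim (Sum.elim (fun i => .inl (e (.inr i))) (fun i => .inr (e (.inr i)))) (fun a => .inr (e (.inl a))))
  invFun := Sum.elim (fun j => Sum.elim .inl (fun i => .inr (.inl (.inl i))) (e.symm j))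
    (fun j => Sum.elim (fun a => .inr (.inr a)) (fun i => .inr (.inl (.inr i))) (e.symm j))
  left_inv x := by rcases x with a | (i | i) | a <;> simp
  right_inv x := by
    rcases x with j | j
    all_goals
      obtain ⟨y, rfl⟩ := e.surjective j
      rcases y with a | i <;> simp

variable (κ r F) in
/-- The alternating form in block form. -/
def form3 : Matrix (Idx3 κ r) (Idx3 κ r) F :=
  blk3 0 0 1 0 (Matrix.J (Fin r) F) 0 1 0 0

theorem J_submatrix (e : κ ⊕ Fin r ≃ Fin m) :
    (Matrix.J (Fin m) F).submatrix (idxEquiv e) (idxEquiv e) = form3 F κ r := by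
  ext i j
  rcases i with a | (x | x) | a <;> rcases j with a' | (y | y) | a' <;>
    simp [form3, blk3, Matrix.J, idxEquiv, Matrix.one_apply, e.injective.eq_iff, CharTwo.neg_eq]

variable (G : Matrix κ κ F)

/-- The involution in block form. -/
def invol3 (r : ℕ) : Matrix (Idx3 κ r) (Idx3 κ r) F := blk3 1 0 G 0 1 0 0 0 1

/-- The standard involution of `Sp₂ₘ` attached to `G`. -/
def involMat (e : κ ⊕ Fin r ≃ Fin m) : Matrix (Fin m ⊕ Fin m) (Fin m ⊕ Fin m) F :=
  (invol3 G r).submatrix (idxEquiv e).symm (idxEquiv e).symm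

theorem mem_symp_iff (e : κ ⊕ Fin r ≃ Fin m) (M : Matrix (Fin m ⊕ Fin m) (Fin m ⊕ Fin m) F) :
    M ∈ Matrix.symplecticGroup (Fin m) F ↔
      (M.submatrix (idxEquiv e) (idxEquiv e))ᵀ * form3 F κ r * M.submatrix (idxEquiv e) (idxEquiv e) =
        form3 F κ r := by
  rw [SymplecticGroup.mem_iff', Matrix.transpose_submatrix, ← J_submatrix e, Matrix.submatrix_mul_equiv,
    Matrix.submatrix_mul_equiv]
  refine ⟨fun h => by rw [h], fun h => ?_⟩
  have h' := congrArg (fun X => Matrix.submatrix X (idxEquiv e).symm (idxEquiv e).symm) h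
  simpa [Matrix.submatrix_submatrix] using h'

theorem invol3_form (hGs : Gᵀ = G) : (invol3 G r)ᵀ * form3 F κ r * invol3 G r = form3 F κ r := by
  simp [invol3, form3, blk3_transpose, blk3_mul, hGs, mat_add_self]

theorem invol3_sq : invol3 G r * invol3 G r = 1 := by
  simp [invol3, blk3_mul, mat_add_self, blk3_one]

/-- The standard involution as an element of `Sp₂ₘ`. -/
def invol (e : κ ⊕ Fin r ≃ Fin m) (hGs : Gᵀ = G) : Matrix.symplecticGroup (Fin m) F :=
  ⟨involMat G e, (mem_symp_iff e _).2 (by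
    simp only [involMat, Matrix.submatrix_submatrix, Equiv.symm_comp_self, Matrix.submatrix_id_id]
    exact invol3_form G hGs)⟩

theorem invol_sq (e : κ ⊕ Fin r ≃ Fin m) (hGs : Gᵀ = G) : invol G e hGs * invol G e hGs = 1 :=
  Subtype.ext (by
    show involMat G e * involMat G e = 1
    rw [involMat, Matrix.submatrix_mul_equiv, invol3_sq, Matrix.submatrix_one_equiv])

/-- The centraliser of the standard involution in block form. -/
noncomputable def centralizerEquiv₁ (e : κ ⊕ Fin r ≃ Fin m) (hGs : Gᵀ = G) :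
    Subgroup.centralizer ({invol G e hGs} : Set (Matrix.symplecticGroup (Fin m) F)) ≃
      {M : Matrix (Idx3 κ r) (Idx3 κ r) F //
        Mᵀ * form3 F κ r * M = form3 F κ r ∧ M * invol3 G r = invol3 G r * M} where
  toFun g := ⟨(g.1.1).submatrix (idxEquiv e) (idxEquiv e), (mem_symp_iff e _).1 g.1.2, by
    have h : g.1.1 * involMat G e = involMat G e * g.1.1 :=
      congrArg Subtype.val ((Subgroup.mem_centralizer_iff.1 g.2 (invol G e hGs) rfl).symm)
    have h' := congrArg (fun X => Matrix.submatrix X (idxEquiv e) (idxEquiv e)) h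
    simp only [← Matrix.submatrix_mul_equiv _ _ _ (idxEquiv e) _] at h'
    simpa [involMat, Matrix.submatrix_submatrix] using h'⟩
  invFun M := ⟨⟨M.1.submatrix (idxEquiv e).symm (idxEquiv e).symm, (mem_symp_iff e _).2 (by
      simpa [Matrix.submatrix_submatrix] using M.2.1)⟩, Subgroup.mem_centralizer_iff.2 (by
    intro x hx
    rw [Set.mem_singleton_iff] at hx
    subst hx
    refine Subtype.ext ?_
    show involMat G e * _ = _ * involMat G e
    simp only [involMat, Matrix.submatrix_mul_equiv, M.2.2])⟩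
  left_inv g := Subtype.ext (Subtype.ext (by simp [Matrix.submatrix_submatrix]))
  right_inv M := Subtype.ext (by simp [Matrix.submatrix_submatrix])

/-- Solutions of `W + Wᵀ = K`. -/
abbrev SymSol (K : Matrix κ κ F) : Type _ := {W : Matrix κ κ F // W + Wᵀ = K}

/-- The centraliser data. -/
abbrev CentData (r : ℕ) : Type _ :=
  GramStab G × Matrix.symplecticGroup (Fin r) F ×
    Σ U : Matrix (Fin r ⊕ Fin r) κ F, SymSol (Uᵀ * Matrix.J (Fin r) F * U)

theorem gramStab_inv (hG : G * G = 1) (D : GramStab G) :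
    G * D.1ᵀ * G * D.1 = 1 ∧ D.1 * (G * D.1ᵀ * G) = 1 := by
  have h : G * D.1ᵀ * G * D.1 = 1 := by
    calc G * D.1ᵀ * G * D.1 = G * (D.1ᵀ * G * D.1) := by simp only [Matrix.mul_assoc]
      _ = 1 := by rw [D.2, hG]
  exact ⟨h, mul_eq_one_comm.1 h⟩

theorem J_transpose' (r : ℕ) : (Matrix.J (Fin r) F)ᵀ = Matrix.J (Fin r) F := by
  rw [Matrix.J_transpose, mat_neg_eq]

theorem conditions_iff (hG : G * G = 1) (hGs : Gᵀ = G) (A : Matrix κ κ F) (B : Matrix κ (Fin r ⊕ Fin r) F)
    (C : Matrix κ κ F) (D : Matrix (Fin r ⊕ Fin r) κ F) (E : Matrix (Fin r ⊕ Fin r) (Fin r ⊕ Fin r) F)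
    (U : Matrix (Fin r ⊕ Fin r) κ F) (H : Matrix κ κ F) (I : Matrix κ (Fin r ⊕ Fin r) F) (K : Matrix κ κ F) :
    ((blk3 A B C D E U H I K)ᵀ * form3 F κ r * blk3 A B C D E U H I K = form3 F κ r ∧
      blk3 A B C D E U H I K * invol3 G r = invol3 G r * blk3 A B C D E U H I K) ↔
    (D = 0 ∧ H = 0 ∧ I = 0 ∧ A = G * K * G ∧ Kᵀ * G * K = G ∧ Eᵀ * Matrix.J (Fin r) F * E = Matrix.J (Fin r) F ∧
      Bᵀ * K = Eᵀ * Matrix.J (Fin r) F * U ∧
      Kᵀ * C + (Kᵀ * C)ᵀ = Uᵀ * Matrix.J (Fin r) F * U) := by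
  constructor
  · rintro ⟨h1, h2⟩
    simp only [invol3, blk3_mul, blk3_inj, Matrix.mul_one, Matrix.one_mul, Matrix.mul_zero, Matrix.zero_mul,
      add_zero, zero_add] at h2
    obtain ⟨eA, eB, eC, -, -, eF, -, -, eI⟩ := h2
    have hH : H = 0 := by
      have e : G * H = 0 := left_eq_add.1 eA
      rw [← Matrix.one_mul H, ← hG, Matrix.mul_assoc, e, Matrix.mul_zero]
    have hI : I = 0 := by
      have e : G * I = 0 := left_eq_add.1 eB
      rw [← Matrix.one_mul I, ← hG, Matrix.mul_assoc, e, Matrix.mul_zero]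
    have hD : D = 0 := by
      have e : D * G = 0 := by simpa using eF
      rw [← Matrix.mul_one D, ← hG, ← Matrix.mul_assoc, e, Matrix.zero_mul]
    have hA : A = G * K * G := by
      have e : A * G = G * K := by
        apply add_right_cancel (b := C)
        rw [eC, add_comm]
      rw [← e, Matrix.mul_assoc, hG, Matrix.mul_one]
    subst hH hI hD
    simp only [form3, blk3_transpose, blk3_mul, blk3_inj, Matrix.mul_one, Matrix.one_mul, Matrix.mul_zero,
      Matrix.zero_mul, add_zero, zero_add, Matrix.transpose_zero] at h1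
    obtain ⟨-, -, hAK, -, hE, hEU, -, -, hK⟩ := h1
    refine ⟨rfl, rfl, rfl, hA, ?_, hE, mat_add_eq_zero.1 ?_, ?_⟩
    · rw [hA, Matrix.transpose_mul, Matrix.transpose_mul, hGs] at hAK
      calc Kᵀ * G * K = G * (G * (Kᵀ * G) * K) := by
            simp only [← Matrix.mul_assoc, hG, Matrix.one_mul]
        _ = G := by rw [hAK, Matrix.mul_one]
    · rw [← hEU]; abel
    · rw [Matrix.transpose_mul, Matrix.transpose_transpose]
      apply mat_add_eq_zero.1
      rw [← hK]; abel
  · rintro ⟨rfl, rfl, rfl, rfl, hK, hE, hB, hC⟩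
    have hKinv : G * Kᵀ * G * K = 1 := (gramStab_inv G hG ⟨K, hK⟩).1
    have hA : (G * K * G)ᵀ * K = 1 := by
      rw [Matrix.transpose_mul, Matrix.transpose_mul, hGs, ← Matrix.mul_assoc]; exact hKinv
    have hA' : Kᵀ * (G * K * G) = 1 := by
      rw [← Matrix.mul_assoc, ← Matrix.mul_assoc, hK, hG]
    have hB' : Kᵀ * B = Uᵀ * Matrix.J (Fin r) F * E := by
      have := congrArg Matrix.transpose hB
      simpa [Matrix.transpose_mul, mat_neg_eq, Matrix.mul_assoc] using this
    refine ⟨?_, ?_⟩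
    · simp only [form3, blk3_transpose, blk3_mul, blk3_inj, Matrix.mul_one, Matrix.one_mul, Matrix.mul_zero,
        Matrix.zero_mul, add_zero, zero_add, Matrix.transpose_zero]
      refine ⟨trivial, trivial, hA, trivial, hE, ?_, hA', ?_, ?_⟩
      · rw [← hB, mat_add_self]
      · rw [← hB', mat_add_self]
      · rw [Matrix.transpose_mul, Matrix.transpose_transpose] at hC
        calc Kᵀ * C + Uᵀ * Matrix.J (Fin r) F * U + Cᵀ * K
            = (Kᵀ * C + Cᵀ * K) + Uᵀ * Matrix.J (Fin r) F * U := by abel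
          _ = 0 := by rw [hC, mat_add_self]
    · simp [invol3, blk3_mul, blk3_inj, Matrix.mul_assoc, hG, add_comm]

/-- The block form of the centraliser in coordinates. -/
noncomputable def centralizerEquiv₂ (hG : G * G = 1) (hGs : Gᵀ = G) :
    CentData G r ≃ {M : Matrix (Idx3 κ r) (Idx3 κ r) F //
      Mᵀ * form3 F κ r * M = form3 F κ r ∧ M * invol3 G r = invol3 G r * M} := by
  refine Equiv.ofBijective (fun x =>
    ⟨blk3 (G * x.1.1 * G) ((x.2.1.1ᵀ * Matrix.J (Fin r) F * x.2.2.1) * (G * x.1.1ᵀ * G))ᵀ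
      (G * x.1.1 * G * x.2.2.2.1) 0 x.2.1.1 x.2.2.1 0 0 x.1.1,
      (conditions_iff G hG hGs _ _ _ _ _ _ _ _ _).2 ⟨rfl, rfl, rfl, rfl, x.1.2,
        SymplecticGroup.mem_iff'.1 x.2.1.2, ?_, ?_⟩⟩) ⟨?_, ?_⟩
  · rw [Matrix.transpose_transpose, Matrix.mul_assoc _ (G * x.1.1ᵀ * G), (gramStab_inv G hG x.1).1,
      Matrix.mul_one]
  · have h : x.1.1ᵀ * (G * x.1.1 * G * x.2.2.2.1) = x.2.2.2.1 := by
      calc x.1.1ᵀ * (G * x.1.1 * G * x.2.2.2.1) = (x.1.1ᵀ * G * x.1.1) * G * x.2.2.2.1 := by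
            simp only [Matrix.mul_assoc]
        _ = _ := by rw [x.1.2, hG, Matrix.one_mul]
    rw [h]; exact x.2.2.2.2
  · rintro ⟨⟨K, hK⟩, ⟨E, hE⟩, U, ⟨W, hW⟩⟩ ⟨⟨K', hK'⟩, ⟨E', hE'⟩, U', ⟨W', hW'⟩⟩ h
    have h' := (blk3_inj ..).1 (congrArg Subtype.val h)
    obtain ⟨-, -, hC, -, hE2, hU, -, -, hK2⟩ := h'
    dsimp only at hC hE2 hU hK2
    subst hK2 hE2 hU
    have hW2 : W = W' := by
      have e := congrArg (fun X => Kᵀ * X) hC
      have h1 : ∀ X, Kᵀ * (G * K * G * X) = X := fun X => by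
        calc Kᵀ * (G * K * G * X) = (Kᵀ * G * K) * G * X := by simp only [Matrix.mul_assoc]
          _ = X := by rw [hK, hG, Matrix.one_mul]
      rwa [h1, h1] at e
    subst hW2
    rfl
  · rintro ⟨M, hM⟩
    obtain ⟨A, B, C, D, E, U, H, I, K, rfl⟩ := exists_blk3 M
    obtain ⟨rfl, rfl, rfl, rfl, hK, hE, hB, hC⟩ := (conditions_iff G hG hGs _ _ _ _ _ _ _ _ _).1 hM
    refine ⟨⟨⟨K, hK⟩, ⟨E, SymplecticGroup.mem_iff'.2 hE⟩, U, ⟨Kᵀ * C, hC⟩⟩, Subtype.ext ?_⟩
    refine (blk3_inj ..).2 ⟨rfl, ?_, ?_, rfl, rfl, rfl, rfl, rfl, rfl⟩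
    · show ((Eᵀ * Matrix.J (Fin r) F * U) * (G * Kᵀ * G))ᵀ = B
      rw [← hB, Matrix.mul_assoc, (gramStab_inv G hG ⟨K, hK⟩).2, Matrix.mul_one, Matrix.transpose_transpose]
    · show G * K * G * (Kᵀ * C) = C
      calc G * K * G * (Kᵀ * C) = G * (K * (G * Kᵀ * G)) * G * C := by
            simp only [Matrix.mul_assoc]
            rw [show G * (G * C) = C by rw [← Matrix.mul_assoc, hG, Matrix.one_mul]]
        _ = C := by rw [(gramStab_inv G hG ⟨K, hK⟩).2, Matrix.mul_one, hG, Matrix.one_mul]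

variable [Fintype F]

theorem card_symSol (K : Matrix κ κ F) (hK : Kᵀ = K) (hd : ∀ i, K i i = 0) :
    Nat.card (SymSol K) = Fintype.card F ^ ((Fintype.card κ + 1).choose 2) := by
  classical
  let e := Fintype.equivFin κ
  let W₀ : Matrix κ κ F := fun i j => if e i < e j then K i j else 0
  have hW₀ : W₀ + W₀ᵀ = K := by
    ext i j
    show W₀ i j + W₀ j i = K i j
    simp only [W₀]
    rcases lt_trichotomy (e i) (e j) with h | h | h
    · rw [if_pos h, if_neg (not_lt.2 h.le), add_zero]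
    · obtain rfl := e.injective h
      rw [if_neg (lt_irrefl _), add_zero, hd]
    · rw [if_neg (not_lt.2 h.le), if_pos h, zero_add]
      exact congrFun (congrFun hK i) j
  let f : SymSol K ≃ {S : Matrix κ κ F // Sᵀ = S} :=
    { toFun := fun W => ⟨W.1 + W₀, by
        have h := W.2
        apply mat_add_eq_zero.1
        calc (W.1 + W₀)ᵀ + (W.1 + W₀) = (W.1 + W.1ᵀ) + (W₀ + W₀ᵀ) := by rw [Matrix.transpose_add]; abel
          _ = 0 := by rw [h, hW₀, mat_add_self]⟩
      invFun := fun S => ⟨S.1 + W₀, by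
        calc S.1 + W₀ + (S.1 + W₀)ᵀ = (S.1 + S.1ᵀ) + (W₀ + W₀ᵀ) := by rw [Matrix.transpose_add]; abel
          _ = K := by rw [S.2, mat_add_self, hW₀, zero_add]⟩
      left_inv := fun W => Subtype.ext (by simp [add_assoc, mat_add_self])
      right_inv := fun S => Subtype.ext (by simp [add_assoc, mat_add_self]) }
  let g : {S : Matrix κ κ F // Sᵀ = S} ≃ (Sym2 κ → F) :=
    { toFun := fun S => Sym2.lift ⟨fun i j => S.1 i j, fun i j => (congrFun (congrFun S.2 i) j).symm⟩
      invFun := fun φ => ⟨Matrix.of fun i j => φ s(i, j), by ext i j; simp [Sym2.eq_swap]⟩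
      left_inv := fun S => Subtype.ext (Matrix.ext fun i j => rfl)
      right_inv := fun φ => funext fun z => by induction z using Sym2.inductionOn; rfl }
  rw [Nat.card_congr (f.trans g), Nat.card_fun, Nat.card_eq_fintype_card, Nat.card_eq_fintype_card, Sym2.card]

theorem J_quad_diag (U : Matrix (Fin r ⊕ Fin r) κ F) (i : κ) : (Uᵀ * Matrix.J (Fin r) F * U) i i = 0 := by
  have h := form_self (F := F) (fun j => U j i)
  rw [Matrix.mul_assoc]
  exact h

/-- The order of the centraliser of a standard involution. -/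
theorem card_centralizer_invol (e : κ ⊕ Fin r ≃ Fin m) (hG : G * G = 1) (hGs : Gᵀ = G) :
    Nat.card (Subgroup.centralizer ({invol G e hGs} : Set (Matrix.symplecticGroup (Fin m) F))) =
      Fintype.card F ^ (2 * r * Fintype.card κ + (Fintype.card κ + 1).choose 2) * Nat.card (GramStab G) *
        Nat.card (Matrix.symplecticGroup (Fin r) F) := by
  classical
  rw [Nat.card_congr ((centralizerEquiv₁ G e hGs).trans (centralizerEquiv₂ G hG hGs).symm)]
  have hsig : Nat.card (Σ U : Matrix (Fin r ⊕ Fin r) κ F, SymSol (Uᵀ * Matrix.J (Fin r) F * U)) =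
      Fintype.card F ^ (2 * r * Fintype.card κ + (Fintype.card κ + 1).choose 2) := by
    rw [Nat.card_sigma, Finset.sum_congr rfl (fun U _ => card_symSol _ (by
      simp [Matrix.transpose_mul, mat_neg_eq, Matrix.mul_assoc]) (J_quad_diag U)), Finset.sum_const,
      Finset.card_univ, smul_eq_mul]
    rw [show Fintype.card (Matrix (Fin r ⊕ Fin r) κ F) = Fintype.card F ^ (2 * r * Fintype.card κ) by
      rw [Fintype.card_congr Matrix.of.symm, Fintype.card_fun, Fintype.card_fun, Fintype.card_sum,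
        Fintype.card_fin, ← pow_mul]
      ring_nf, ← pow_add]
  rw [Nat.card_prod, Nat.card_prod, hsig]
  ring

end CfsgLib.Classical.SympCharTwo
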