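import Cfsg.Agent.Classical.Symp.Simple
import Mathlib.FieldTheory.Finite.Basic
import Mathlib.RingTheory.AdjoinRoot
import Mathlib.LinearAlgebra.Matrix.Charpoly.Minpoly

/-!
Shape of an element of odd order of `Sp_2n(F)`: either it commutes with an involution other
than `-1`, or it is unipotent, or its minimal polynomial is a power of a single self-reciprocal
orbit of irreducible polynomials, whose roots have order dividing `q^D ± 1`.
-/

set_option autoImplicit false

namespace CfsgLib.Classical.Symp.OddTypes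

open Matrix Polynomial

variable {n : ℕ} {F : Type*} [Field F]

local notation "Mat" => Matrix (Fin n ⊕ Fin n) (Fin n ⊕ Fin n) F
local notation "Sp" => Matrix.symplecticGroup (Fin n) F

theorem exists_idem_pow {A : Type*} [Monoid A] [Finite A] (M : A) :
    ∃ N, 0 < N ∧ IsIdempotentElem (M ^ N) := by
  obtain ⟨i, j, hne, h⟩ := Finite.exists_ne_map_eq_of_infinite (fun k : ℕ => M ^ k)
  wlog hij : i < j generalizing i j
  · exact this j i hne.symm h.symm (by omega)
  have hstep : ∀ m k, i ≤ k → M ^ (k + m * (j - i)) = M ^ k := by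
    intro m
    induction m with
    | zero => simp
    | succ m ih =>
      intro k hk
      have e1 : k + (m + 1) * (j - i) = (k - i + m * (j - i)) + j := by
        rw [add_mul, one_mul]; omega
      rw [e1, pow_add, ← show M ^ i = M ^ j from h, ← pow_add]
      rw [show k - i + m * (j - i) + i = k + m * (j - i) by omega]
      exact ih k hk
  refine ⟨(i + 1) * (j - i), Nat.mul_pos (by omega) (by omega), ?_⟩
  show M ^ _ * M ^ _ = M ^ _
  rw [← pow_add]
  exact hstep (i + 1) _ (le_trans (by omega : i ≤ i + 1) (Nat.le_mul_of_pos_right _ (by omega)))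

theorem aeval_mul_pow_eq_reflect {A : Type*} [Ring A] [Algebra F A] {x y : A} (hyx : y * x = 1)
    (P : F[X]) (D : ℕ) (hP : P.natDegree ≤ D) :
    aeval y P * x ^ D = aeval x (P.reflect D) := by
  refine Polynomial.induction_with_natDegree_le
    (fun P => aeval y P * x ^ D = aeval x (P.reflect D)) D ?_ ?_ ?_ P hP
  · simp
  · intro m a _ hm
    rw [reflect_C_mul_X_pow, revAt_le hm, map_mul, map_mul, map_pow, map_pow, aeval_C, aeval_C, aeval_X,
      aeval_X, mul_assoc]
    congr 1
    conv_lhs => rw [show D = m + (D - m) by omega, pow_add, ← mul_assoc, pow_mul_pow_eq_one _ hyx, one_mul]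
  · intro P Q _ _ hP' hQ'
    rw [map_add, add_mul, hP', hQ', reflect_add, map_add]

theorem reverse_rev (f : F[X]) (h0 : f.coeff 0 ≠ 0) : f.reverse.reverse = f := by
  have hd : f.reverse.natDegree = f.natDegree := by
    rw [reverse_natDegree, natTrailingDegree_eq_zero.mpr (Or.inr h0), Nat.sub_zero]
  ext i
  rw [coeff_reverse, coeff_reverse, hd]
  simp

theorem reverse_dvd_reverse {f P : F[X]} (h : f ∣ P) : f.reverse ∣ P.reverse := by
  obtain ⟨c, rfl⟩ := h
  exact ⟨c.reverse, reverse_mul_of_domain f c⟩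

theorem natDegree_reverse_eq (f : F[X]) (h0 : f.coeff 0 ≠ 0) : f.reverse.natDegree = f.natDegree := by
  rw [reverse_natDegree, natTrailingDegree_eq_zero.mpr (Or.inr h0), Nat.sub_zero]

theorem irreducible_reverse {f : F[X]} (hf : Irreducible f) (h0 : f.coeff 0 ≠ 0) :
    Irreducible f.reverse := by
  have hf0 : f.reverse ≠ 0 := by rw [Ne, reverse_eq_zero]; exact hf.ne_zero
  refine ⟨fun hu => ?_, fun a b hab => ?_⟩
  · have := natDegree_eq_zero_of_isUnit hu
    rw [natDegree_reverse_eq f h0] at this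
    exact absurd hf.natDegree_pos (by omega)
  · have hab0 : a.coeff 0 * b.coeff 0 ≠ 0 := by
      rw [← mul_coeff_zero, ← hab, coeff_zero_reverse]
      exact leadingCoeff_ne_zero.mpr hf.ne_zero
    have h2 := congrArg reverse hab
    rw [reverse_rev f h0, reverse_mul_of_domain] at h2
    have key : ∀ c : F[X], c.coeff 0 ≠ 0 → IsUnit c.reverse → IsUnit c := by
      intro c hc hu
      have h1 := natDegree_eq_zero_of_isUnit hu
      rw [natDegree_reverse_eq c hc] at h1
      rw [eq_C_of_natDegree_eq_zero h1]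
      exact isUnit_C.mpr (IsUnit.mk0 _ hc)
    exact (hf.isUnit_or_isUnit h2).imp (key a (left_ne_zero_of_mul hab0)) (key b (right_ne_zero_of_mul hab0))

theorem reverse_X_pow_sub_one (r : ℕ) : ((X : F[X]) ^ r - 1).reverse = -((X : F[X]) ^ r - 1) := by
  have hd : ((X : F[X]) ^ r - 1).natDegree = r := by rw [← C_1, natDegree_X_pow_sub_C]
  rw [reverse, hd, reflect_sub, reflect_monomial, reflect_one, revAt_le le_rfl, Nat.sub_self,
    pow_zero]
  simp

theorem aeval_inv (g : Sp) (P : F[X]) :
    aeval ((g⁻¹ : Sp) : Mat) P = -J (Fin n) F * (aeval (g : Mat) P)ᵀ * J (Fin n) F := by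
  induction P using Polynomial.induction_on' with
  | add p q hp hq => simp [hp, hq, transpose_add, mul_add, add_mul]
  | monomial k a =>
    have h1 : ((g⁻¹ : Sp) : Mat) ^ k = -J (Fin n) F * ((g : Mat) ^ k)ᵀ * J (Fin n) F := by
      rw [← SubmonoidClass.coe_pow, inv_pow, SymplecticGroup.coe_inv, SubmonoidClass.coe_pow]
    rw [aeval_monomial, aeval_monomial, h1, ← Algebra.smul_def, ← Algebra.smul_def, transpose_smul,
      Matrix.mul_smul, Matrix.smul_mul]

theorem coe_inv_mul (g : Sp) : ((g⁻¹ : Sp) : Mat) * (g : Mat) = 1 := by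
  rw [← Submonoid.coe_mul, inv_mul_cancel]; rfl

theorem minpoly_dvd_reverse [Finite F] (g : Sp) :
    minpoly F (g : Mat) ∣ (minpoly F (g : Mat)).reverse := by
  refine minpoly.dvd F _ ?_
  rw [reverse, ← aeval_mul_pow_eq_reflect (coe_inv_mul g) _ _ le_rfl, aeval_inv, minpoly.aeval,
    transpose_zero, mul_zero, zero_mul, zero_mul]

/-- If some irreducible factor's orbit does not cover the minimal polynomial, `g` commutes with an
involution different from `-1`. -/
theorem involution_or_single_orbit [Finite F] (h2 : (2 : F) ≠ 0) (g : Sp) (f : F[X]) (h0 : f.coeff 0 ≠ 0)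
    (hf : Irreducible f) (hdvd : f ∣ minpoly F (g : Mat)) :
    (∃ t : Sp, Commute g t ∧ t ^ 2 = 1 ∧ t ≠ 1 ∧ t ≠ negOne n F) ∨
      ∃ N, minpoly F (g : Mat) ∣ (f * f.reverse) ^ N := by
  set h := f * f.reverse with hh
  have hrev : h.reverse = h := by
    rw [hh, reverse_mul_of_domain, reverse_rev f h0, mul_comm]
  obtain ⟨N, hN, hidem⟩ := exists_idem_pow (aeval (g : Mat) h)
  set e := aeval (g : Mat) h ^ N with he
  by_cases he0 : e = 0
  · exact Or.inr ⟨N, minpoly.dvd F _ (by rw [map_pow]; exact he0)⟩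
  by_cases he1 : e = 1
  · exfalso
    obtain ⟨w, hw⟩ := hdvd
    have hint : IsIntegral F (g : Mat) := Algebra.IsIntegral.isIntegral _
    have hμ0 := minpoly.ne_zero hint
    have : aeval (g : Mat) w = 0 := by
      have hd : minpoly F (g : Mat) ∣ w * h ^ N := by
        rw [hw, mul_comm f w]
        exact mul_dvd_mul_left w ((dvd_mul_right f f.reverse).trans (dvd_pow_self h hN.ne'))
      obtain ⟨z, hz⟩ := hd
      have := congrArg (aeval (g : Mat)) hz
      simp only [map_mul, map_pow, minpoly.aeval, zero_mul] at this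
      rw [← he, he1, mul_one] at this
      exact this
    have hdd := minpoly.dvd F _ this
    have hw0 : w ≠ 0 := fun h => hμ0 (by rw [hw, h, mul_zero])
    have := natDegree_le_of_dvd hdd hw0
    rw [hw, natDegree_mul hf.ne_zero hw0] at this
    have := hf.natDegree_pos
    omega
  left
  set G' := ((g⁻¹ : Sp) : Mat) with hG'
  set c := G' ^ (h.natDegree * N) with hc
  have hGG' : (g : Mat) * G' = 1 := by rw [hG', ← Submonoid.coe_mul, mul_inv_cancel]; rfl
  have hcomm : Commute (aeval (g : Mat) h) (g : Mat) :=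
    by simpa using (Commute.all h X).map (aeval (g : Mat))
  have hcomm' : Commute (aeval (g : Mat) h) G' := by
    have h1 : (aeval (g : Mat) h) * G' = G' * ((g : Mat) * aeval (g : Mat) h) * G' := by
      rw [← mul_assoc G', coe_inv_mul, one_mul]
    rw [Commute, SemiconjBy, h1, ← hcomm.eq, mul_assoc, mul_assoc, hGG', mul_one]
  have hσ : aeval G' h = aeval (g : Mat) h * G' ^ h.natDegree := by
    have hr := aeval_mul_pow_eq_reflect (coe_inv_mul g) h _ le_rfl
    rw [← reverse, hrev] at hr
    rw [← hr, mul_assoc, pow_mul_pow_eq_one _ hGG', mul_one]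
  have hσe : -J (Fin n) F * eᵀ * J (Fin n) F = e * c := by
    rw [he, hc, pow_mul, ← (hcomm'.pow_right _).mul_pow, ← hσ, ← map_pow (aeval G'), hG', aeval_inv, map_pow]
  have hec : e * c = e := by
    have hJ : J (Fin n) F * -J (Fin n) F = 1 := by rw [mul_neg, J_squared, neg_neg]
    have h1 : (e * c) * (e * c) = e * c := by
      rw [← hσe]
      calc -J (Fin n) F * eᵀ * J (Fin n) F * (-J (Fin n) F * eᵀ * J (Fin n) F)
          = -J (Fin n) F * eᵀ * (J (Fin n) F * -J (Fin n) F) * eᵀ * J (Fin n) F := by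
            simp only [Matrix.mul_assoc]
        _ = -J (Fin n) F * (eᵀ * eᵀ) * J (Fin n) F := by rw [hJ, mul_one]; simp only [Matrix.mul_assoc]
        _ = _ := by rw [← transpose_mul, hidem.eq]
    have hce : Commute c e := ((hcomm'.pow_right _).pow_left _).symm
    have h3 : e * c * c = e * c := by
      rw [mul_assoc e c (e * c), ← mul_assoc c e c, hce.eq, mul_assoc e c c, ← mul_assoc e e,
        hidem.eq] at h1
      rw [mul_assoc]
      exact h1
    have hinv : c * (g : Mat) ^ (h.natDegree * N) = 1 := by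
      rw [hc]; exact pow_mul_pow_eq_one _ (coe_inv_mul g)
    have h4 := congrArg (· * (g : Mat) ^ (h.natDegree * N)) h3
    simpa only [mul_assoc, hinv, mul_one] using h4
  rw [hec] at hσe
  have hJe : eᵀ * J (Fin n) F = J (Fin n) F * e := by
    conv_rhs => rw [← hσe]
    rw [← mul_assoc, ← mul_assoc, mul_neg, J_squared, neg_neg, one_mul]
  set t : Mat := 1 - (2 : F) • e with ht
  have htt : t * t = 1 := by
    have : t * t = 1 - ((2 : F) + 2 - 2 * 2) • e := by
      simp only [ht, sub_mul, mul_sub, one_mul, mul_one, smul_mul_assoc, mul_smul_comm, smul_smul,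
        hidem.eq]
      module
    rw [this]
    norm_num
  have hmem : t ∈ Matrix.symplecticGroup (Fin n) F := by
    rw [SymplecticGroup.mem_iff']
    have : tᵀ * J (Fin n) F = J (Fin n) F * t := by
      simp only [ht, transpose_sub, transpose_one, transpose_smul, sub_mul, mul_sub, one_mul,
        mul_one, smul_mul_assoc, mul_smul_comm, hJe]
    rw [this, mul_assoc, htt, mul_one]
  refine ⟨⟨t, hmem⟩, ?_, ?_, ?_, ?_⟩
  · refine Subtype.ext ?_
    show (g : Mat) * t = t * (g : Mat)
    have : Commute e (g : Mat) := hcomm.pow_left _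
    rw [ht, mul_sub, sub_mul, mul_smul_comm, smul_mul_assoc, this.eq, one_mul, mul_one]
  · refine Subtype.ext ?_
    rw [SubmonoidClass.coe_pow, pow_two]
    exact htt
  · intro h1
    have : t = 1 := congrArg Subtype.val h1
    rw [ht, sub_eq_self, smul_eq_zero] at this
    exact he0 (this.resolve_left h2)
  · intro h1
    have : t = -1 := congrArg Subtype.val h1
    rw [ht, sub_eq_iff_eq_add, eq_comm, neg_add_eq_iff_eq_add] at this
    apply he1
    apply smul_right_injective Mat h2
    simp only [this, two_smul]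

theorem order_dvd_pow_add_one [Fintype F] {f : F[X]} [Fact (Irreducible f)] (hdvd : f ∣ f.reverse)
    (h0 : f.coeff 0 ≠ 0) (hne : (AdjoinRoot.root f) ^ 2 ≠ 1) :
    ∃ D, f.natDegree = 2 * D ∧ (AdjoinRoot.root f) ^ (Fintype.card F ^ D + 1) = 1 := by
  haveI : Module.Finite F (AdjoinRoot f) :=
    (AdjoinRoot.powerBasis (Fact.out : Irreducible f).ne_zero).finite
  haveI : Finite (AdjoinRoot f) := Module.finite_of_finite F
  have hrank : Module.finrank F (AdjoinRoot f) = f.natDegree := by
    rw [(AdjoinRoot.powerBasis (Fact.out : Irreducible f).ne_zero).finrank, AdjoinRoot.powerBasis_dim]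
  set ζ := AdjoinRoot.root f with hζ
  have hroot : aeval ζ f = 0 := by rw [hζ, AdjoinRoot.aeval_eq, AdjoinRoot.mk_self]
  have hζ0 : ζ ≠ 0 := by
    intro h
    apply h0
    have h1 := hroot
    rw [h, ← coeff_zero_eq_aeval_zero'] at h1
    exact (map_eq_zero_iff _ (RingHom.injective _)).mp h1
  have hrev : aeval ζ f.reverse = 0 := by
    obtain ⟨c, hc⟩ := hdvd
    rw [hc, map_mul, hroot, zero_mul]
  have hinv : aeval ζ⁻¹ f = 0 := by
    have := aeval_mul_pow_eq_reflect (F := F) (inv_mul_cancel₀ hζ0) f _ le_rfl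
    rw [← reverse, hrev, mul_eq_zero] at this
    exact this.resolve_right (pow_ne_zero _ hζ0)
  set σ := AdjoinRoot.liftAlgHom f (Algebra.ofId F (AdjoinRoot f)) ζ⁻¹ hinv with hσ
  obtain ⟨⟨i, hi⟩, hi'⟩ :=
    (FiniteField.bijective_frobeniusAlgHom_pow F (AdjoinRoot f)).2 σ
  have hpow : ζ ^ (Fintype.card F ^ i) = ζ⁻¹ := by
    have h1 := DFunLike.congr_fun hi' ζ
    have hσζ : σ ζ = ζ⁻¹ := AdjoinRoot.liftAlgHom_root f _ _ hinv
    rw [hσζ] at h1
    simpa [AlgHom.coe_pow, FiniteField.coe_frobeniusAlgHom, pow_iterate] using h1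
  refine ⟨i, ?_, ?_⟩
  · have h1 : ζ ^ (Fintype.card F ^ (i + i)) = ζ := by
      rw [pow_add, pow_mul, hpow, inv_pow, hpow, inv_inv]
    have h2 : FiniteField.frobeniusAlgHom F (AdjoinRoot f) ^ (i + i) = 1 := by
      refine AdjoinRoot.algHom_ext ?_
      simp only [AlgHom.coe_pow, FiniteField.coe_frobeniusAlgHom, pow_iterate, AlgHom.one_apply]
      exact h1
    have h3 := orderOf_dvd_of_pow_eq_one h2
    rw [FiniteField.orderOf_frobeniusAlgHom, hrank] at h3
    rw [hrank] at hi
    have hi0 : i ≠ 0 := by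
      rintro rfl
      rw [pow_zero, pow_one] at hpow
      exact hne (by rw [pow_two]; nth_rw 2 [hpow]; exact mul_inv_cancel₀ hζ0)
    obtain ⟨c, hc⟩ := h3
    rcases Nat.lt_or_ge c 2 with hc2 | hc2
    · interval_cases c <;> omega
    · nlinarith
  · rw [pow_add, pow_one, hpow, inv_mul_cancel₀ hζ0]

/-- The shape of an element of odd order. -/
theorem odd_order_cases [Fintype F] (hn : 0 < n) (h2 : (2 : F) ≠ 0) (g : Sp) (hodd : Odd (orderOf g)) :
    (∃ t : Sp, Commute g t ∧ t ^ 2 = 1 ∧ t ≠ 1 ∧ t ≠ negOne n F) ∨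
      ((g : Mat) - 1) ^ (2 * n) = 0 ∨
      ∃ D a r, 1 ≤ D ∧ 1 ≤ a ∧ a * D ≤ n ∧ Odd r ∧
        (r ∣ Fintype.card F ^ D - 1 ∨ r ∣ Fintype.card F ^ D + 1) ∧ ((g : Mat) ^ r - 1) ^ a = 0 := by
  classical
  haveI : Nonempty (Fin n) := ⟨⟨0, hn⟩⟩
  set μ := minpoly F (g : Mat) with hμdef
  have hint : IsIntegral F (g : Mat) := Algebra.IsIntegral.isIntegral _
  have hμ0 : μ ≠ 0 := minpoly.ne_zero hint
  have hdeg : μ.natDegree ≤ 2 * n := by
    refine (natDegree_le_of_dvd (Matrix.minpoly_dvd_charpoly (g : Mat))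
      (Matrix.charpoly_monic _).ne_zero).trans ?_
    rw [Matrix.charpoly_natDegree_eq_dim, Fintype.card_sum, Fintype.card_fin]
    omega
  obtain ⟨f, hmon, hf, hfμ⟩ := exists_monic_irreducible_factor μ (minpoly.not_isUnit F _)
  haveI : Fact (Irreducible f) := ⟨hf⟩
  set k := orderOf g with hk
  have hk0 : 0 < k := hodd.pos
  have hμX : μ ∣ X ^ k - 1 := minpoly.dvd F _ (by
    rw [map_sub, map_pow, aeval_X, map_one, sub_eq_zero, ← SubmonoidClass.coe_pow, hk,
      pow_orderOf_eq_one]
    rfl)
  set ζ := AdjoinRoot.root f with hζ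
  have hζk : ζ ^ k = 1 := by
    have h := hfμ.trans hμX
    rw [← AdjoinRoot.mk_eq_zero, map_sub, map_pow, AdjoinRoot.mk_X, map_one, sub_eq_zero] at h
    exact h
  have h0 : f.coeff 0 ≠ 0 := by
    intro h
    have hX : X ∣ (X : F[X]) ^ k - 1 := (X_dvd_iff.mpr h).trans (hfμ.trans hμX)
    rw [X_dvd_iff] at hX
    simp [coeff_X_pow, hk0.ne] at hX
  rcases involution_or_single_orbit h2 g f h0 hf hfμ with hh | ⟨N, hN⟩
  · exact Or.inl hh
  right
  set r := orderOf ζ with hr
  have hrk : r ∣ k := orderOf_dvd_of_pow_eq_one hζk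
  have hrodd : Odd r := hodd.of_dvd_nat hrk
  have hfr : f ∣ X ^ r - 1 := by
    rw [← AdjoinRoot.mk_eq_zero, map_sub, map_pow, AdjoinRoot.mk_X, map_one, sub_eq_zero]
    exact pow_orderOf_eq_one _
  have hkill : ∀ (P : F[X]) (a : ℕ), μ ∣ P ^ a → P ∣ X ^ r - 1 → ((g : Mat) ^ r - 1) ^ a = 0 := by
    intro P a h1 h2
    obtain ⟨c, hc⟩ := h1.trans (pow_dvd_pow_of_dvd h2 a)
    have := congrArg (aeval (g : Mat)) hc
    simpa [hμdef, minpoly.aeval] using this
  have hζ2 : r ≠ 1 → ζ ^ 2 ≠ 1 := by
    intro h h'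
    rcases (Nat.dvd_prime Nat.prime_two).1 (orderOf_dvd_of_pow_eq_one h') with h1 | h1
    · exact h h1
    · rw [← hr] at h1
      exact absurd hrodd (by rw [h1]; decide)
  by_cases hself : f ∣ f.reverse
  · have hassoc : Associated f f.reverse :=
      hf.associated_of_dvd (irreducible_reverse hf h0) hself
    have hμf : μ ∣ f ^ (2 * N) := by
      refine hN.trans ?_
      rw [mul_pow, two_mul, pow_add]
      exact mul_dvd_mul_left _ (hassoc.symm.pow_pow.dvd)
    obtain ⟨a, -, ha⟩ := (dvd_prime_pow hf.prime _).1 hμf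
    have hda : μ.natDegree = a * f.natDegree := by
      rw [natDegree_eq_of_degree_eq (degree_eq_degree_of_associated ha), natDegree_pow]
    have ha0 : 1 ≤ a := by
      rcases Nat.eq_zero_or_pos a with rfl | h
      · rw [zero_mul] at hda
        exact absurd hda (Nat.pos_iff_ne_zero.mp (minpoly.natDegree_pos hint))
      · exact h
    by_cases hr1 : r = 1
    · left
      have h1 := hkill f a ha.dvd hfr
      rw [hr1, pow_one] at h1
      refine pow_eq_zero_of_le ?_ h1
      have := hf.natDegree_pos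
      nlinarith
    · right
      obtain ⟨D, hD, hζD⟩ := order_dvd_pow_add_one hself h0 (hζ2 hr1)
      have := hf.natDegree_pos
      refine ⟨D, a, r, by omega, ha0, ?_, hrodd, Or.inr (orderOf_dvd_of_pow_eq_one hζD),
        hkill f a ha.dvd hfr⟩
      rw [hda, hD] at hdeg
      nlinarith
  · right
    have hrev := irreducible_reverse hf h0
    have hco : IsCoprime f f.reverse := hf.coprime_iff_not_dvd.mpr hself
    rw [mul_pow] at hN
    obtain ⟨d1, d2, hd1, hd2, hd⟩ := exists_dvd_and_dvd_of_dvd_mul hN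
    obtain ⟨a, -, ha⟩ := (dvd_prime_pow hf.prime _).1 hd1
    obtain ⟨b, -, hb⟩ := (dvd_prime_pow hrev.prime _).1 hd2
    have hμab : Associated μ (f ^ a * f.reverse ^ b) := by
      have := ha.mul_mul hb
      rwa [← hd] at this
    have hrevpow : ∀ (P : F[X]) (c : ℕ), (P ^ c).reverse = P.reverse ^ c := by
      intro P c
      induction c with
      | zero => rw [pow_zero, pow_zero, ← C_1, reverse_C]
      | succ c ih => rw [pow_succ, pow_succ, reverse_mul_of_domain, ih]
    have hdvd2 : f ^ a * f.reverse ^ b ∣ f.reverse ^ a * f ^ b := by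
      have h1 := reverse_dvd_reverse hμab.dvd
      rw [reverse_mul_of_domain, hrevpow, hrevpow, reverse_rev f h0] at h1
      exact (hμab.symm.dvd.trans (minpoly_dvd_reverse g)).trans h1
    have hab : a ≤ b := by
      have h1 : f ^ a ∣ f ^ b :=
        (hco.pow (m := a) (n := a)).dvd_of_dvd_mul_left ((dvd_mul_right _ _).trans hdvd2)
      exact (pow_dvd_pow_iff hf.ne_zero hf.not_isUnit).1 h1
    have hba : b ≤ a := by
      have h1 : f.reverse ^ b ∣ f.reverse ^ a :=
        (hco.symm.pow (m := b) (n := b)).dvd_of_dvd_mul_right ((dvd_mul_left _ _).trans hdvd2)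
      exact (pow_dvd_pow_iff hrev.ne_zero hrev.not_isUnit).1 h1
    obtain rfl : a = b := le_antisymm hab hba
    rw [← mul_pow] at hμab
    have hda : μ.natDegree = a * (2 * f.natDegree) := by
      rw [natDegree_eq_of_degree_eq (degree_eq_degree_of_associated hμab), natDegree_pow,
        natDegree_mul hf.ne_zero hrev.ne_zero, natDegree_reverse_eq f h0, two_mul]
    have ha0 : 1 ≤ a := by
      rcases Nat.eq_zero_or_pos a with rfl | h
      · rw [zero_mul] at hda
        exact absurd hda (Nat.pos_iff_ne_zero.mp (minpoly.natDegree_pos hint))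
      · exact h
    refine ⟨f.natDegree, a, r, hf.natDegree_pos, ha0, by rw [hda] at hdeg; nlinarith, hrodd, Or.inl ?_,
      hkill _ a hμab.dvd (hco.mul_dvd hfr ?_)⟩
    · haveI : Module.Finite F (AdjoinRoot f) := (AdjoinRoot.powerBasis hf.ne_zero).finite
      haveI : Finite (AdjoinRoot f) := Module.finite_of_finite F
      have hcard : Nat.card (AdjoinRoot f) = Fintype.card F ^ f.natDegree := by
        rw [Module.natCard_eq_pow_finrank (K := F), Nat.card_eq_fintype_card,
          (AdjoinRoot.powerBasis hf.ne_zero).finrank, AdjoinRoot.powerBasis_dim]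
      have hu : IsUnit ζ := IsUnit.of_pow_eq_one hζk hk0.ne'
      rw [hr, ← hu.unit_spec, orderOf_units, ← hcard, ← Nat.card_units]
      exact orderOf_dvd_natCard _
    · have h1 := reverse_dvd_reverse hfr
      rwa [reverse_X_pow_sub_one, dvd_neg] at h1

end CfsgLib.Classical.Symp.OddTypes
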